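import Mathlib
import Cfsg.Agent.H221.CD.Defs
import Cfsg.Agent.H60.DE.Arith
import Cfsg.Agent.H429.CS.OutD
import Cfsg.Agent.H363.Frat

/-!
# S3677, row `PΩ⁺(2n, q)`, `n` even: consequences of `SD` (helper429)
-/

set_option autoImplicit false

namespace Cfsg.Agent.H429.CD

open Subgroup Cfsg Cfsg.Agent.H364 Cfsg.Agent.H902.Lte Cfsg.Agent.H902.Art Cfsg.Agent.H60.DE Cfsg.Agent.H221.CD
open Cfsg.Agent.H429.CS (PP)

universe u

variable {n q d m p f r : ℕ}

/-- the prime divisors of `m` are prime to `q` -/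
theorem coprime_q (h : Num n q d m) (hn : 4 ≤ n) (hq : 2 ≤ q) {t : ℕ} (ht : t.Prime) (htm : t ∣ m) : ¬ t ∣ q := by
  intro htq
  have h1 : 1 ≤ q ^ (n - 1) := Nat.one_le_pow _ _ (by omega)
  have h2 : t ∣ q ^ (n - 1) := dvd_pow htq (by omega)
  have key1 : ¬ t ∣ q ^ (n - 1) + 1 := fun h3 => ht.one_lt.ne' (Nat.dvd_one.1 ((Nat.dvd_add_right h2).1 h3))
  have key2 : ¬ t ∣ q + 1 := fun h3 => ht.one_lt.ne' (Nat.dvd_one.1 ((Nat.dvd_add_right htq).1 h3))
  have key3 : ¬ t ∣ q ^ (n - 1) - 1 := fun h3 => by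
    have h4 := Nat.dvd_sub h2 h3
    rw [Nat.sub_sub_self h1] at h4
    exact ht.one_lt.ne' (Nat.dvd_one.1 h4)
  have key4 : ¬ t ∣ q - 1 := fun h3 => by
    have h4 := Nat.dvd_sub htq h3
    rw [Nat.sub_sub_self (by omega : 1 ≤ q)] at h4
    exact ht.one_lt.ne' (Nat.dvd_one.1 h4)
  rcases h with ⟨-, h, -⟩ | ⟨-, h, -⟩
  · have h5 : t ∣ (q ^ (n - 1) + 1) * (q + 1) := by rw [← h]; exact htm.mul_right _
    rcases ht.dvd_mul.1 h5 with h6 | h6
    · exact key1 h6
    · exact key2 h6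
  · have h5 : t ∣ (q ^ (n - 1) - 1) * (q - 1) := by rw [← h]; exact htm.mul_right _
    rcases ht.dvd_mul.1 h5 with h6 | h6
    · exact key3 h6
    · exact key4 h6

theorem m_pos (h : Num n q d m) (hn : 4 ≤ n) (hq : 2 ≤ q) : 0 < m := by
  have h1 : 1 < q ^ (n - 1) := Nat.one_lt_pow (by omega) (by omega)
  rcases Nat.eq_zero_or_pos m with rfl | h0
  · exfalso
    rcases h with ⟨-, h, -⟩ | ⟨-, h, -⟩
    · rw [zero_mul] at h
      have : 0 < (q ^ (n - 1) + 1) * (q + 1) := Nat.mul_pos (by omega) (by omega)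
      omega
    · rw [zero_mul] at h
      have : 0 < (q ^ (n - 1) - 1) * (q - 1) := Nat.mul_pos (by omega) (by omega)
      omega
  · exact h0

/-- the exceptional primes do not divide `m` -/
theorem exc_not_dvd (h : Num n q d m) (hn : 4 ≤ n) (hev : n % 2 = 0) {t : ℕ} (he : (q = 2 ∧ t = 3) ∨ (q = 3 ∧ t = 2)) :
    ¬ t ∣ m := by
  intro htm
  obtain ⟨k, rfl⟩ : ∃ k, n = 2 * k + 2 := ⟨n / 2 - 1, by omega⟩
  rw [H60.DE.Num, show 2 * k + 2 - 1 = 2 * k + 1 by omega] at h
  rcases he with ⟨rfl, rfl⟩ | ⟨rfl, rfl⟩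
  · rcases h with ⟨-, -, h⟩ | ⟨-, h, -⟩
    · omega
    · have h5 : 3 ∣ (2 ^ (2 * k + 1) - 1) * (2 - 1) := by rw [← h]; exact htm.mul_right _
      rw [show 2 - 1 = 1 from rfl, mul_one] at h5
      have h6 : 2 ^ (2 * k) % 3 = 1 := by
        rw [pow_mul, Nat.pow_mod]
        norm_num
      rw [pow_succ] at h5
      omega
  · rcases h with ⟨-, -, h⟩ | ⟨-, h, -⟩
    · omega
    · have h7 : 9 ^ (k + 1) % 16 = 9 ∨ 9 ^ (k + 1) % 16 = 1 := by
        induction k with
        | zero => left; rfl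
        | succ k ih =>
          rcases Nat.lt_or_ge k 1 with hk | hk
          · obtain rfl : k = 0 := by omega
            right; rfl
          · have h8 : ∀ j : ℕ, 9 ^ j % 16 = 9 ∨ 9 ^ j % 16 = 1 := by
              intro j
              induction j with
              | zero => right; rfl
              | succ j ih => rw [pow_succ]; omega
            exact h8 _
      have h9 : 3 ^ (2 * k + 2) = 9 ^ (k + 1) := by
        rw [show 2 * k + 2 = 2 * (k + 1) by ring, pow_mul]; norm_num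
      have hg : Nat.gcd 4 (3 ^ (2 * k + 2) - 1) = 4 := by
        apply Nat.gcd_eq_left
        rw [h9]
        omega
      rw [hg] at h
      have h10 : 3 ^ (2 * k + 1) % 4 = 3 := by
        rw [pow_succ, pow_mul, Nat.mul_mod, Nat.pow_mod]
        norm_num
      obtain ⟨c, hc⟩ := htm
      have h11 : m * 4 = (3 ^ (2 * k + 1) - 1) * 2 := h
      generalize 3 ^ (2 * k + 1) = y at h10 h11
      omega

/-- a prime of the class `2 (n - 1)` or `2 (n - 2)` -/
theorem not_dvd_K {G : Type u} [Group G] [Finite G] {K : Subgroup G} [K.Normal] {S : Subgroup (G ⧸ K)}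
    (h : SD G n p f d m K S) (hr : r.Prime) (hro : orderOf (p : ZMod r) = f * (2 * (n - 1)) ∨
      orderOf (p : ZMod r) = f * (2 * (n - 2))) : ¬ r ∣ Nat.card K := by
  have hn := h.hn
  have hev := h.hev
  have hf := h.hY.hf
  have hq := h.hY.q_ge
  intro hrK
  have hfk : ∀ k, 1 ≤ k → k ≤ f * k := fun k _ => Nat.le_mul_of_pos_left _ hf
  have h4 : 4 ≤ orderOf (p : ZMod r) := by
    rcases hro with h1 | h1 <;> rw [h1]
    · exact (by omega : 4 ≤ 2 * (n - 1)).trans (hfk _ (by omega))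
    · exact (by omega : 4 ≤ 2 * (n - 2)).trans (hfk _ (by omega))
  obtain ⟨h5, h6⟩ := Cfsg.Agent.H429.CS.OutD.ne_of_order' hr (k := orderOf (p : ZMod r)) (by omega) rfl
  have hrp : r ≠ p := fun h3 => h6 (by rw [h3])
  have hoq : orderOf ((p ^ f : ℕ) : ZMod r) = 2 * (n - 1) ∨ orderOf ((p ^ f : ℕ) : ZMod r) = 2 * (n - 2) := by
    rcases hro with h1 | h1
    · left
      exact ord_q hf h1
    · right
      exact ord_q hf h1
  have hoq' : orderOf (((p ^ f) ^ 2 : ℕ) : ZMod r) = n - 1 ∨ orderOf (((p ^ f) ^ 2 : ℕ) : ZMod r) = n - 2 := by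
    rcases hoq with h1 | h1
    · left; exact ord_sq h1
    · right; exact ord_sq h1
  rcases h.kap r hr hrK with h7 | h7 | ⟨-, h7⟩ | ⟨-, h7⟩
  · exact hrp h7
  · by_cases hd : orderOf ((p ^ f : ℕ) : ZMod r) = d
    · exact h.not_dvd r hr hd hrK
    · refine h.num.not_dvd hn hev hq hr (by omega) ?_ hd h7
      rcases hoq' with h8 | h8 <;> rw [h8]
      · omega
      · -- `n / 2 < n - 2` fails for `n = 4`
        by_cases h44 : n = 4
        · exfalso
          subst h44
          obtain ⟨h9, -⟩ := h.num.ord_dvd hq h7 hr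
          rcases hoq with h10 | h10
          · have h11 := ord_sq h10
            omega
          · rw [h10] at h9
            revert h9
            decide
        · omega
  · omega
  · omega

/-- `p` does not divide `m` -/
theorem p_not_dvd {G : Type u} [Group G] [Finite G] {K : Subgroup G} [K.Normal] {S : Subgroup (G ⧸ K)}
    (h : SD G n p f d m K S) : ¬ p ∣ m := fun h1 =>
  coprime_q h.num h.hn h.hY.q_ge h.hY.hp h1 (dvd_pow_self p (by have := h.hY.hf; omega))

/-- a prime `r` with `orderOf p = f * d` -/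
theorem exists_base {G : Type u} [Group G] [Finite G] {K : Subgroup G} [K.Normal] {S : Subgroup (G ⧸ K)}
    (h : SD G n p f d m K S) : ∃ r : ℕ, r.Prime ∧ r ≠ p ∧ r ∣ Nat.card G ∧ orderOf (p : ZMod r) = f * d ∧
      orderOf ((p ^ f : ℕ) : ZMod r) = d := by
  have hn := h.hn
  have hev := h.hev
  have hf := h.hY.hf
  have hq := h.hY.q_ge
  have hp := h.hY.hp
  have hd3 : 3 ≤ d := by rcases h.num.d_cases with h1 | h1 <;> omega
  have hfd : d ≤ f * d := Nat.le_mul_of_pos_left _ hf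
  have hex : ¬ (p = 2 ∧ f * d = 6) := by
    rintro ⟨rfl, h6⟩
    have hf3 : f = 1 ∨ f = 2 := by
      have : f * 3 ≤ f * d := Nat.mul_le_mul_left _ hd3
      have : f ≤ 2 := by omega
      omega
    rcases h.num with ⟨h1, -, h2⟩ | ⟨h1, -, h2⟩
    · rcases hf3 with rfl | rfl
      · norm_num at h2
      · omega
    · rcases hf3 with rfl | rfl
      · omega
      · norm_num at h2
  obtain ⟨r, hr, hro⟩ := Cfsg.Agent.Lib.Zsigmondy.exists_prime_orderOf hp.two_le (show 2 ≤ f * d by omega)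
    (fun h => by omega) hex
  obtain ⟨h1, h2⟩ := Cfsg.Agent.H429.CS.OutD.ne_of_order' hr (show 3 ≤ f * d by omega) hro
  have hoq := ord_q hf hro
  exact ⟨r, hr, fun h3 => h2 (by rw [h3]), (h.pp r hr hoq).dvd, hro, hoq⟩

/-- no element of order `r l` for the chosen primes `r` and `l ∤ m` -/
theorem noEdge_of_pp {G : Type u} [Group G] [Finite G] (h : PP G r m) {l : ℕ} (hl : l.Prime) (hlm : ¬ l ∣ m) :
    NoEdge G r l := by
  intro x hx
  have hr := h.prime
  have h1 : orderOf (x ^ l) = r := by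
    rw [orderOf_pow_of_dvd hl.ne_zero (by rw [hx]; exact Dvd.intro_left _ rfl), hx, Nat.mul_div_cancel _ hl.pos]
  have h2 := h.cent _ h1
  have h3 : x ∈ centralizer ({x ^ l} : Set G) := by
    rw [mem_centralizer_singleton_iff]
    exact ((Commute.refl x).pow_right l).eq
  have h4 := Subgroup.orderOf_mk x h3
  apply hlm
  refine Dvd.dvd.trans ?_ h2
  have h5 := orderOf_dvd_natCard (⟨x, h3⟩ : centralizer ({x ^ l} : Set G))
  rw [h4, hx] at h5
  exact (Dvd.intro_left _ rfl).trans h5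

end Cfsg.Agent.H429.CD
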