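import Mathlib
import Cfsg.Agent.H429.CD.Base
import Cfsg.Agent.H60.DE.Four
import Cfsg.Agent.S0205

/-!
# S3677, row `PΩ₈⁺(q)`: the characteristic does not divide `|K|` (helper429)
-/

set_option autoImplicit false

namespace Cfsg.Agent.H429.CD

open Subgroup Cfsg Cfsg.Agent.H364 Cfsg.Agent.H902.Lte Cfsg.Agent.H902.Art Cfsg.Agent.H60.DE Cfsg.Agent.H221.CD
open Cfsg.Agent.H429.CS (PP)

universe u

variable {p f d m : ℕ} {G : Type u} [Group G] [Finite G] {K : Subgroup G} [K.Normal] {S : Subgroup (G ⧸ K)}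

theorem card_two (hY : Real (.D 4) p f (Nat.card G)) (h : p ^ f = 2) : Nat.card G = 174182400 := by
  have h1 := hY.eq
  rw [h] at h1
  have e1 : dd (.D 4) 2 = 1 := by decide +kernel
  have e2 : 2 ^ NN (.D 4) * num (.D 4) 2 = 174182400 := by decide +kernel
  rw [e1, e2] at h1
  omega

theorem card_three (hY : Real (.D 4) p f (Nat.card G)) (h : p ^ f = 3) : Nat.card G = 4952179814400 := by
  have h1 := hY.eq
  rw [h] at h1
  have e1 : dd (.D 4) 3 = 4 := by decide +kernel
  have e2 : 3 ^ NN (.D 4) * num (.D 4) 3 = 4 * 4952179814400 := by decide +kernel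
  rw [e1, e2] at h1
  omega

/-- the prime of order `3` -/
theorem prime_seven {r : ℕ} (hr : r.Prime) (h : orderOf ((2 : ℕ) : ZMod r) = 3) : r = 7 := by
  have h1 : r ∣ 2 ^ 3 - 1 := by rw [Cfsg.Agent.Lib.Zsigmondy.dvd_pow_sub_one_iff (by norm_num), h]
  exact (Nat.prime_dvd_prime_iff_eq hr (by norm_num)).1 h1

theorem prime_thirteen {r : ℕ} (hr : r.Prime) (h : orderOf ((3 : ℕ) : ZMod r) = 3) : r = 13 := by
  have h1 : r ∣ 3 ^ 3 - 1 := by rw [Cfsg.Agent.Lib.Zsigmondy.dvd_pow_sub_one_iff (by norm_num), h]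
  have h2 : r ∣ 2 * 13 := h1
  rcases hr.dvd_mul.1 h2 with h3 | h3
  · exfalso
    have h4 := (Nat.prime_dvd_prime_iff_eq hr Nat.prime_two).1 h3
    subst h4
    have h5 : ((3 : ℕ) : ZMod 2) = 1 := by decide
    rw [h5, orderOf_one] at h
    omega
  · exact (Nat.prime_dvd_prime_iff_eq hr (by norm_num)).1 h3

theorem hO (h : SD G 4 p f d m K S) : ∀ l : ℕ, l.Prime → l ≠ p → ∀ N : Subgroup G, N.Normal → N ≤ K → IsPGroup l N →
    N = ⊥ := by
  intro l hl hlp N hN hNK hNp
  by_cases hexc : (p ^ f = 2 ∧ l = 3) ∨ (p ^ f = 3 ∧ l = 2)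
  swap
  · rw [not_or] at hexc
    exact h.core l hl hlp hexc.1 hexc.2 N hN hNp
  obtain ⟨r, hr, hrp, hrG, hro, hoq⟩ := exists_base h
  have hlm : ¬ l ∣ m := exc_not_dvd h.num (le_refl 4) rfl hexc
  have hE := noEdge_of_pp (h.pp r hr hoq) hl hlm
  have hrN : ¬ r ∣ Nat.card N := fun h1 => h.not_dvd r hr hoq (h1.trans (Subgroup.card_dvd_of_le hNK))
  have hrl : r ≠ l := by
    rintro rfl
    exact h.not_dvd r hr hoq (by
      by_contra hcon
      have h1 := (h.pp r hr hoq).dvd
      obtain ⟨y, hy⟩ := @exists_prime_orderOf_dvd_card' G _ _ r ⟨hr⟩ h1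
      have h2 := (h.pp r hr hoq).cent y hy
      apply hlm
      refine Dvd.dvd.trans ?_ h2
      have h3 : y ∈ centralizer ({y} : Set G) := by
        rw [mem_centralizer_singleton_iff]
      have h4 := orderOf_dvd_natCard (⟨y, h3⟩ : centralizer ({y} : Set G))
      rwa [Subgroup.orderOf_mk, hy] at h4)
  have hc := congr_one N hr hl hrl hrN hE
  have hc1 : r ∣ l ^ (Nat.card N).factorization l - 1 :=
    (dvd_pow_self r (hr.factorization_pos_of_dvd Nat.card_pos.ne' hrG).ne').trans hc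
  have := Fact.mk hl
  obtain ⟨a, ha⟩ := IsPGroup.iff_card.1 hNp
  rw [ha, hl.factorization_pow, Finsupp.single_eq_same] at hc1
  have hNG : l ^ a ∣ Nat.card G := by rw [← ha]; exact Subgroup.card_subgroup_dvd_card N
  rcases hexc with ⟨h2, rfl⟩ | ⟨h3, rfl⟩
  · have hd : d = 3 := by
      have h4 := h.num
      rw [h2] at h4
      rcases h4 with ⟨-, -, h5⟩ | ⟨h5, -, -⟩
      · omega
      · exact h5
    rw [h2, hd] at hoq
    obtain rfl := prime_seven hr hoq
    have ha5 : a ≤ 5 := by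
      by_contra hcon
      have h5 : 3 ^ 6 ∣ Nat.card G := (pow_dvd_pow 3 (by omega)).trans hNG
      rw [card_two h.hY h2] at h5
      revert h5
      decide
    have ha0 : a = 0 := by
      interval_cases a
      · rfl
      all_goals (exfalso; revert hc1; decide)
    rw [ha0, pow_zero] at ha
    exact Subgroup.card_eq_one.1 ha
  · have hd : d = 3 := by
      have h4 := h.num
      rw [h3] at h4
      rcases h4 with ⟨-, -, h5⟩ | ⟨h5, -, -⟩
      · omega
      · exact h5
    rw [h3, hd] at hoq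
    obtain rfl := prime_thirteen hr hoq
    have h13 : ¬ 2 ^ 13 ∣ Nat.card G := by
      rw [card_three h.hY h3]
      decide
    have ha12 : a ≤ 12 := by
      by_contra hcon
      exact h13 ((pow_dvd_pow 2 (by omega)).trans hNG)
    have ha0 : a = 0 ∨ a = 12 := by
      interval_cases a
      · exact Or.inl rfl
      all_goals first
        | exact Or.inr rfl
        | (exfalso; revert hc1; decide)
    rcases ha0 with ha0 | ha0
    · rw [ha0, pow_zero] at ha
      exact Subgroup.card_eq_one.1 ha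
    · exfalso
      have hKd : 2 ^ 12 ∣ Nat.card K := by
        rw [← ha0, ← ha]
        exact Subgroup.card_dvd_of_le hNK
      have hodd : Odd (Nat.card S) := by
        rw [← Nat.not_even_iff_odd]
        intro hev
        apply h13
        rw [← h.card]
        calc 2 ^ 13 = 2 ^ 12 * 2 := by norm_num
          _ ∣ Nat.card K * (S.index * Nat.card S) := Nat.mul_dvd_mul hKd (hev.two_dvd.mul_left _)
      have hsim := h.simple
      have hsolv : Group.IsSolvable S := Cfsg.Agent.S0205.result hodd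
      exact h.nonab (IsSimpleGroup.comm_iff_isSolvable.2 hsolv)

/-- **The characteristic does not divide `|K|`.** -/
theorem p_not_dvd_K (h : SD G 4 p f d m K S)
    (hidx : ∀ x : G, x ≠ 1 → ¬ p ∣ (centralizer ({x} : Set G)).index →
      (centralizer ({x} : Set G)).index = ((p ^ f) ^ 2 + 1) ^ 2 * ((p ^ f) ^ 6 - 1)) : ¬ p ∣ Nat.card K := by
  obtain ⟨r, hr, hrp, hrG, hro, hoq⟩ := exists_base h
  refine four_not_dvd h.hY hr hrp hrG hro ?_ (h.noEdge r hr hoq) hidx K h.solv (h.not_dvd r hr hoq) (hO h)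
  rcases h.num.d_cases with h1 | h1 <;> omega

/-- no elements of order `s p` in the quotient -/
theorem noEdge_quot {n s : ℕ} (h : SD G n p f d m K S) (hs : s.Prime) (hso : orderOf ((p ^ f : ℕ) : ZMod s) = d) :
    NoEdge (G ⧸ K) s p :=
  noEdge_of_pp ((h.pp s hs hso).quotient K (h.not_dvd s hs hso)) h.hY.hp (p_not_dvd h)

end Cfsg.Agent.H429.CD
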